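import Cfsg.Agent.H682.KB.KMain
import Cfsg.Agent.H322.XR.Quad

/-!
# S4791 + S4927, row `E₈(q)`: the root values of helper682's vectors are `0` or units (helper875)

`cof P k v` : the product of the conjugates `x ↦ x ^ k` of a quadruple `v` (`ℤ[x] / (x⁴ - P)`).
-/

set_option autoImplicit false
set_option linter.unusedSectionVars false

namespace Cfsg.Agent.H875.XE8

open Cfsg Cfsg.Lie
open Cfsg.Agent.Nodes.RGDChev Cfsg.Agent.H210.EL
open Cfsg.Agent.H682.KB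

/-- `x ^ n` -/
def xp (P : Q4) : ℕ → Q4
  | 0 => (1, 0, 0, 0)
  | n + 1 => mx P (xp P n)

/-- the value at `x ^ k` -/
def cj (P : Q4) (k : ℕ) (v : Q4) : Q4 :=
  add4 (sm4 v.1 (1, 0, 0, 0)) (add4 (sm4 v.2.1 (xp P k)) (add4 (sm4 v.2.2.1 (xp P (2 * k))) (sm4 v.2.2.2 (xp P (3 * k)))))

/-- the cofactor of the norm -/
def cof (P : Q4) (k : ℕ × ℕ × ℕ) (v : Q4) : Q4 :=
  mul4 P (cj P k.1 v) (mul4 P (cj P k.2.1 v) (cj P k.2.2 v))

/-- the value of the vector `B` at `y` -/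
def qd {l : ℕ} (B : List Q4) (y : Fin l → ℤ) : Q4 :=
  (∑ n : Fin l, y n * (B.getD n (0, 0, 0, 0)).1, ∑ n : Fin l, y n * (B.getD n (0, 0, 0, 0)).2.1,
    ∑ n : Fin l, y n * (B.getD n (0, 0, 0, 0)).2.2.1, ∑ n : Fin l, y n * (B.getD n (0, 0, 0, 0)).2.2.2)

theorem lam_vv {l N : ℕ} (q : ZMod N) (B : List Q4) (y : Fin l → ℤ) : lam (vv q B : Fin l → ZMod N) y = ev q (qd B y) := by
  unfold lam vv qd
  conv_rhs => rw [ev]
  push_cast
  rw [Finset.sum_mul, Finset.sum_mul, Finset.sum_mul, ← Finset.sum_add_distrib, ← Finset.sum_add_distrib,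
    ← Finset.sum_add_distrib]
  refine Finset.sum_congr rfl fun n _ => ?_
  unfold ev
  ring

/-- the check -/
def RootOK (D : ChevalleyDatum) (l : ℕ) (P : Q4) (k : ℕ × ℕ × ℕ) (B : List Q4) : Prop :=
  ∀ s : Fin D.nroots, qd B (vec D l s) = (0, 0, 0, 0) ∨
    (mul4 P (cof P k (qd B (vec D l s))) (qd B (vec D l s))).2 = (0, 0, 0) ∧
      (mul4 P (cof P k (qd B (vec D l s))) (qd B (vec D l s))).1 ∣ 360

instance (D : ChevalleyDatum) (l : ℕ) (P : Q4) (k : ℕ × ℕ × ℕ) (B : List Q4) : Decidable (RootOK D l P k B) := by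
  unfold RootOK; infer_instance

theorem not_dvd_360 {p : ℕ} [hpp : Fact p.Prime] (h11 : 11 ≤ p) {n : ℤ} (hn : n ∣ 360) : ¬ (p : ℤ) ∣ n := by
  intro h
  have h1 : (p : ℤ) ∣ 360 := h.trans hn
  have h2 : p ∣ 2 * (2 * (2 * (3 * (3 * 5)))) := by exact_mod_cast h1
  have := hpp.out
  rcases this.dvd_mul.1 h2 with h | h
  · have := Nat.le_of_dvd (by norm_num) h; omega
  rcases hpp.out.dvd_mul.1 h with h | h
  · have := Nat.le_of_dvd (by norm_num) h; omega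
  rcases hpp.out.dvd_mul.1 h with h | h
  · have := Nat.le_of_dvd (by norm_num) h; omega
  rcases hpp.out.dvd_mul.1 h with h | h
  · have := Nat.le_of_dvd (by norm_num) h; omega
  rcases hpp.out.dvd_mul.1 h with h | h
  · have := Nat.le_of_dvd (by norm_num) h; omega
  · have := Nat.le_of_dvd (by norm_num) h; omega

theorem RootOK.spec {D : ChevalleyDatum} {l : ℕ} {P : Q4} {k : ℕ × ℕ × ℕ} {B : List Q4} (h : RootOK D l P k B) {p : ℕ}
    [hpp : Fact p.Prime] (h11 : 11 ≤ p) {m : ℕ} (hm : m ≠ 0) {q : ZMod (p ^ m)} (hq : q ^ 4 = ev q P) (s : Fin D.nroots) :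
    lam (vv q B : Fin l → ZMod (p ^ m)) (vec D l s) = 0 ∨ IsUnit (lam (vv q B : Fin l → ZMod (p ^ m)) (vec D l s)) := by
  rw [lam_vv]
  rcases h s with h1 | ⟨h1, h2⟩
  · left
    rw [h1, ev_zero]
  · right
    exact isUnit_ev hm hq (Prod.ext rfl h1) (not_dvd_360 h11 h2)

theorem root5 : RootOK chevE8 8 (-1, -1, -1, -1) (2, 3, 4) D5.B := by decide +kernel
theorem root10 : RootOK chevE8 8 (-1, 1, -1, 1) (3, 7, 9) D10.B := by decide +kernel
theorem root8 : RootOK chevE8 8 (-1, 0, 0, 0) (3, 5, 7) D8.B := by decide +kernel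
theorem root12 : RootOK chevE8 8 (-1, 0, 1, 0) (5, 7, 11) D12.B := by decide +kernel
theorem root12' : RootOK chevE8 8 (-1, 0, 1, 0) (5, 7, 11) D12.B' := by decide +kernel

end Cfsg.Agent.H875.XE8
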